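import Groth.Agent.Ega2.H275.FrameNorm
import Groth.Agent.Ega2.H292.NormData

/-!
# Norm data for finite locally free morphisms

`exists_normData`: `g : X' ⟶ X` surjective, `g_* O_{X'}` locally free of finite rank, `X` quasi-compact: there are `n > 0`
and a norm datum of degree `n` (a power of the norm on each stratum of constant rank).
`Fr.restrictOpen`: frames for the restriction `g ∣_ U`.
-/

set_option autoImplicit false
universe u

open CategoryTheory AlgebraicGeometry TopologicalSpace Opposite CategoryTheory.Limits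
open Groth.Agent.Fdesc.LocGen Groth.Agent.Ega2.H275.FrameNorm Groth.Agent.Flat2H.FamExt

namespace Groth.Agent.Ega2.H275.FrameData

variable {X' X : Scheme.{u}} {g : X' ⟶ X}

theorem map_map_eq (X : Scheme.{u}) {A B B' C : (X.Opens)ᵒᵖ} (a : A ⟶ B) (b : B ⟶ C) (a' : A ⟶ B') (b' : B' ⟶ C)
    (s : X.presheaf.obj A) : (X.presheaf.map b).hom ((X.presheaf.map a).hom s) =
      (X.presheaf.map b').hom ((X.presheaf.map a').hom s) := by
  rw [← CommRingCat.comp_apply, ← CommRingCat.comp_apply, ← Functor.map_comp, ← Functor.map_comp]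
  rfl

/-- Frames for the restriction of `g` to an open. -/
noncomputable def frRestrict (U : X.Opens) (W : U.toScheme.Opens) {n : ℕ} (fr : Fr g (U.ι ''ᵁ W) n) :
    Fr (g ∣_ U) W n where
  e k := (X'.presheaf.map (eqToHom (image_morphismRestrict_preimage g U W)).op).hom (fr.e k)
  bij V h := by
    have hle : U.ι ''ᵁ V ≤ U.ι ''ᵁ W := U.ι.image_mono h
    have h1 := fr.bij (U.ι ''ᵁ V) hle
    have h2 : Function.Bijective (X'.presheaf.map (eqToHom (image_morphismRestrict_preimage g U V)).op).hom :=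
      ConcreteCategory.bijective_of_isIso _
    have h3 := h2.comp h1
    refine (congrArg Function.Bijective ?_).mp h3
    funext c
    simp only [Function.comp_apply, map_sum, map_mul]
    refine Finset.sum_congr rfl fun k _ ↦ ?_
    congr 1
    · rw [morphismRestrict_app]
      rfl
    · exact map_map_eq X' _ _ _ _ (fr.e k)

/-- The opens over which the norm datum is defined. -/
def P (g : X' ⟶ X) (n : ℕ) (V : X.Opens) : Prop :=
  IsAffineOpen V ∧ ∃ r : ℕ, r ∣ n ∧ Nonempty (Fr g V r)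

/-- The rank over an open. -/
noncomputable def rk {n : ℕ} {V : X.Opens} (h : P g n V) : ℕ := h.2.choose

theorem rk_dvd {n : ℕ} {V : X.Opens} (h : P g n V) : rk h ∣ n := h.2.choose_spec.1

/-- A frame. -/
noncomputable def fr {n : ℕ} {V : X.Opens} (h : P g n V) : Fr g V (rk h) := h.2.choose_spec.2.some

theorem mem_basicOpen_nm {V : X.Opens} {r : ℕ} (fr : Fr g V r) (b : Γ(X', g ⁻¹ᵁ V)) {z : X}
    (hz : z ∈ X.basicOpen (nm g V b)) {y : X'} (hy : g y = z) : y ∈ X'.basicOpen b := by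
  subst hy
  let V' := X.basicOpen (nm g V b)
  have hle : V' ≤ V := X.basicOpen_le _
  have h1 : IsUnit (ores hle (nm g V b)) := RingedSpace.isUnit_res_basicOpen _ _
  rw [← fr.nm_ores le_rfl hle, fr.isUnit_nm_iff hle] at h1
  exact le_basicOpen_of_isUnit b (pre g hle) h1 hz

/-- Norm data. -/
noncomputable def normData (g : X' ⟶ X) [Surjective g] {n : ℕ} (hn : 0 < n)
    (hP : ∀ x : X, ∃ (W : X.Opens) (r : ℕ), x ∈ W ∧ r ∣ n ∧ Nonempty (Fr g W r)) :
    H292.NormData.NormData g (𝟙 X) n :=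
  H292.NormData.NormData.mk' g (𝟙 X) n (P g n) (fun h ↦ h.1)
    (by
      intro U x hx
      obtain ⟨W, r, hxW, hr, ⟨fr⟩⟩ := hP x
      obtain ⟨V, hV, hxV, hVU⟩ := exists_isAffineOpen_mem_and_subset (x := x) (U := U ⊓ W) ⟨hx, hxW⟩
      have hVU' : V ≤ U ⊓ W := hVU
      exact ⟨V, hxV, hVU'.trans inf_le_left, hV, r, hr, ⟨fr.restr (hVU'.trans inf_le_right)⟩⟩)
    (fun V hV ↦ (powMonoidHom (n / rk hV)).comp (nm g V))
    (by
      intro V V' hV hV' i b
      change nm g V' (ores (pre g i) b) ^ (n / rk hV') = ores i (nm g V b ^ (n / rk hV))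
      rw [(fr hV).nm_ores le_rfl i, map_pow]
      rcases (V' : Set X).eq_empty_or_nonempty with h0 | h0
      · have h1 : V' = ⊥ := by ext1; exact h0
        subst h1
        exact Subsingleton.elim _ _
      · rw [(fr hV).rank_unique (fr hV') i le_rfl h0])
    (by
      intro V hV a
      change nm g V ((g.app V).hom a) ^ (n / rk hV) = a ^ n
      rw [(fr hV).nm_app le_rfl, ← pow_mul, Nat.mul_div_cancel' (rk_dvd hV)])
    (by
      intro V hV b z hz hzb x hx
      have h0 : 0 < n / rk hV :=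
        Nat.div_pos (Nat.le_of_dvd hn (rk_dvd hV)) (Nat.pos_of_dvd_of_pos (rk_dvd hV) hn)
      have h1 : z ∈ X.basicOpen (nm g V b ^ (n / rk hV)) := hzb
      rw [X.basicOpen_pow _ h0] at h1
      exact mem_basicOpen_nm (fr hV) b h1 hx)

theorem exists_uniform [CompactSpace X] [Surjective g]
    (h : ∀ x : X, ∃ (W : X.Opens) (r : ℕ), x ∈ W ∧ Nonempty (Fr g W r)) :
    ∃ n : ℕ, 0 < n ∧ ∀ x : X, ∃ (W : X.Opens) (r : ℕ), x ∈ W ∧ r ∣ n ∧ Nonempty (Fr g W r) := by
  classical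
  choose W r hxW hfr using h
  have hr : ∀ x, 0 < r x := fun x ↦ (hfr x).some.rank_pos ⟨x, hxW x⟩
  obtain ⟨t, ht⟩ := isCompact_univ.elim_finite_subcover (fun x : X ↦ (W x : Set X)) (fun x ↦ (W x).isOpen)
    (fun x _ ↦ Set.mem_iUnion.2 ⟨x, hxW x⟩)
  refine ⟨∏ x ∈ t, r x, Finset.prod_pos fun x _ ↦ hr x, fun x ↦ ?_⟩
  obtain ⟨z, hz, hx⟩ := Set.mem_iUnion₂.1 (ht (Set.mem_univ x))
  exact ⟨W z, r z, hx, Finset.dvd_prod_of_mem _ hz, hfr z⟩

/-- Norm data for finite locally free morphisms. -/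
theorem exists_normData [CompactSpace X] [Surjective g]
    (h : ∀ x : X, ∃ (W : X.Opens) (r : ℕ), x ∈ W ∧ Nonempty (Fr g W r)) :
    ∃ n : ℕ, 0 < n ∧ Nonempty (H292.NormData.NormData g (𝟙 X) n) := by
  obtain ⟨n, hn, hP⟩ := exists_uniform h
  exact ⟨n, hn, ⟨normData g hn hP⟩⟩

/-- Local frames for the restriction. -/
theorem exists_fr_restrict (U : X.Opens)
    (h : ∀ x : X, ∃ (W : X.Opens) (r : ℕ), x ∈ W ∧ Nonempty (Fr g W r)) (x : U) :
    ∃ (W : U.toScheme.Opens) (r : ℕ), x ∈ W ∧ Nonempty (Fr (g ∣_ U) W r) := by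
  obtain ⟨W, r, hxW, ⟨fr⟩⟩ := h x.1
  have hle : U.ι ''ᵁ (U.ι ⁻¹ᵁ W) ≤ W := U.ι.image_preimage_le W
  exact ⟨U.ι ⁻¹ᵁ W, r, hxW, ⟨frRestrict U _ (fr.restr hle)⟩⟩

end Groth.Agent.Ega2.H275.FrameData
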