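import Mathlib.RingTheory.Norm.Defs
import Mathlib.LinearAlgebra.Dimension.StrongRankCondition

/-!
# The norm of a finite free algebra: base change of bases, units
-/

set_option autoImplicit false

namespace Groth.Agent.Ega2.H275.NormRes

open Module

variable {ι A B A' B' : Type*} [Fintype ι] [CommRing A] [CommRing B] [Algebra A B] [CommRing A'] [CommRing B']
  [Algebra A' B']

theorem repr_map (ψ : A →+* A') (φ : B →+* B') (hc : ∀ a, φ (algebraMap A B a) = algebraMap A' B' (ψ a))
    (b : Basis ι A B) (b' : Basis ι A' B') (hb : ∀ k, b' k = φ (b k)) (x : B) (i : ι) :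
    b'.repr (φ x) i = ψ (b.repr x i) := by
  classical
  have h1 : φ x = ∑ k, ψ (b.repr x k) • b' k := by
    conv_lhs => rw [← b.sum_repr x]
    rw [map_sum]
    refine Finset.sum_congr rfl fun k _ ↦ ?_
    rw [Algebra.smul_def, Algebra.smul_def, map_mul, hc, hb]
  rw [h1, map_sum, Finsupp.finsetSum_apply]
  simp only [map_smul, Basis.repr_self, Finsupp.smul_apply, smul_eq_mul, Finsupp.single_apply, mul_ite, mul_one,
    mul_zero, Finset.sum_ite_eq', Finset.mem_univ, if_true]

/-- The norm is compatible with base change of a basis. -/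
theorem norm_map (ψ : A →+* A') (φ : B →+* B') (hc : ∀ a, φ (algebraMap A B a) = algebraMap A' B' (ψ a))
    (b : Basis ι A B) (b' : Basis ι A' B') (hb : ∀ k, b' k = φ (b k)) (x : B) :
    Algebra.norm A' (φ x) = ψ (Algebra.norm A x) := by
  classical
  rw [Algebra.norm_eq_matrix_det b, Algebra.norm_eq_matrix_det b', RingHom.map_det]
  congr 1
  ext i j
  rw [Algebra.leftMulMatrix_eq_repr_mul, hb j, ← map_mul, repr_map ψ φ hc b b' hb, RingHom.mapMatrix_apply,
    Matrix.map_apply, Algebra.leftMulMatrix_eq_repr_mul]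

theorem isUnit_norm_iff (b : Basis ι A B) (x : B) : IsUnit (Algebra.norm A x) ↔ IsUnit x := by
  refine ⟨fun hx ↦ ?_, fun hx ↦ hx.map _⟩
  have : Module.Free A B := .of_basis b
  have : Module.Finite A B := .of_basis b
  rw [Algebra.norm_apply, ← LinearMap.isUnit_iff_isUnit_det, Module.End.isUnit_iff] at hx
  obtain ⟨y, hy⟩ := hx.2 1
  exact IsUnit.of_mul_eq_one y hy

theorem card_unique [Nontrivial A] {ι' : Type*} [Fintype ι'] (b : Basis ι A B) (b' : Basis ι' A B) :
    Fintype.card ι = Fintype.card ι' :=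
  Fintype.card_congr (b.indexEquiv b')

end Groth.Agent.Ega2.H275.NormRes
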