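import Groth.Agent.LoccohB.FinLocFreeFrame
import Groth.Agent.Flat2H.FamExt
import Groth.Agent.Ega2.H275.NormRes

/-!
# The norm of functions along a morphism whose direct image of the structure sheaf is locally free

`g : X' ⟶ X`.  `Fr g W n`: a basis `e : Fin n → Γ(X', g⁻¹W)` of `g_* O_{X'}` over `W` (a basis over every smaller open).
`nm g V : Γ(X', g⁻¹V) →* Γ(X, V)` is `Algebra.norm`; below a frame it is compatible with restriction (`Fr.nm_ores`),
`nm g V (g^# a) = a ^ n` (`Fr.nm_app`) and detects units (`Fr.isUnit_nm_iff`).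
-/

set_option autoImplicit false
universe u

open CategoryTheory AlgebraicGeometry TopologicalSpace Opposite CategoryTheory.Limits
open Groth.Agent.Fdesc.LocGen

namespace Groth.Agent.Ega2.H275.FrameNorm

variable {X' X : Scheme.{u}} (g : X' ⟶ X)

theorem pre {V W : X.Opens} (h : V ≤ W) : g ⁻¹ᵁ V ≤ g ⁻¹ᵁ W := fun _ hx ↦ h hx

/-- `Γ(X', g⁻¹V)` as an algebra over `Γ(X, V)`. -/
noncomputable abbrev alg (V : X.Opens) : Algebra Γ(X, V) Γ(X', g ⁻¹ᵁ V) := (g.app V).hom.toAlgebra

theorem app_ores {V W : X.Opens} (h : V ≤ W) (a : Γ(X, W)) :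
    (g.app V).hom (ores h a) = ores (pre g h) ((g.app W).hom a) := by
  have h1 := g.naturality (homOfLE h).op
  exact congr($(h1).hom a)

/-- A frame of `g_* O_{X'}` over `W`. -/
structure Fr (W : X.Opens) (n : ℕ) where
  /-- the basis -/
  e : Fin n → Γ(X', g ⁻¹ᵁ W)
  bij : ∀ (V : X.Opens) (h : V ≤ W), Function.Bijective
    (fun c : Fin n → Γ(X, V) ↦ ∑ k, (g.app V).hom (c k) * ores (pre g h) (e k))

/-- The norm. -/
noncomputable def nm (V : X.Opens) : Γ(X', g ⁻¹ᵁ V) →* Γ(X, V) :=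
  letI := alg g V
  Algebra.norm Γ(X, V)

variable {g}

namespace Fr

variable {W : X.Opens} {n : ℕ} (fr : Fr g W n)

/-- Restriction of frames. -/
noncomputable def restr {V : X.Opens} (h : V ≤ W) : Fr g V n where
  e k := ores (pre g h) (fr.e k)
  bij V' h' := by
    simpa using fr.bij V' (h'.trans h)

/-- The linear map attached to a frame. -/
noncomputable def lin {V : X.Opens} (h : V ≤ W) :
    letI := alg g V; (Fin n → Γ(X, V)) →ₗ[Γ(X, V)] Γ(X', g ⁻¹ᵁ V) :=
  letI := alg g V
  { toFun := fun c ↦ ∑ k, (g.app V).hom (c k) * ores (pre g h) (fr.e k)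
    map_add' := fun a b ↦ by
      simp only [Pi.add_apply, map_add, add_mul, Finset.sum_add_distrib]
    map_smul' := fun r a ↦ by
      rw [RingHom.id_apply, Finset.smul_sum]
      refine Finset.sum_congr rfl fun k _ ↦ ?_
      rw [Pi.smul_apply, smul_eq_mul, map_mul, mul_assoc]
      rfl }

/-- The basis over an open attached to a frame. -/
noncomputable def basis {V : X.Opens} (h : V ≤ W) :
    letI := alg g V; Module.Basis (Fin n) Γ(X, V) Γ(X', g ⁻¹ᵁ V) :=
  letI := alg g V
  Module.Basis.ofEquivFun (LinearEquiv.ofBijective (fr.lin h) (fr.bij V h)).symm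

theorem basis_apply {V : X.Opens} (h : V ≤ W) (k : Fin n) :
    letI := alg g V; fr.basis h k = ores (pre g h) (fr.e k) := by
  classical
  let a1 := alg g V
  have h1 : fr.basis h k = fr.lin h (Pi.single k 1) := by
    rw [basis, Module.Basis.coe_ofEquivFun]
    rfl
  rw [h1]
  change ∑ j, (g.app V).hom ((Pi.single k 1 : Fin n → Γ(X, V)) j) * ores (pre g h) (fr.e j) = _
  rw [Finset.sum_eq_single k]
  · rw [Pi.single_eq_same, map_one, one_mul]
  · intro b _ hb
    rw [Pi.single_eq_of_ne hb, map_zero, zero_mul]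
  · simp

include fr in
/-- The norm is compatible with restriction. -/
theorem nm_ores {V V' : X.Opens} (h : V ≤ W) (h' : V' ≤ V) (b : Γ(X', g ⁻¹ᵁ V)) :
    nm g V' (ores (pre g h') b) = ores h' (nm g V b) := by
  let a1 := alg g V
  let a2 := alg g V'
  refine NormRes.norm_map (ores h') (ores (pre g h')) (fun a ↦ (app_ores g h' a).symm) (fr.basis h)
    (fr.basis (h'.trans h)) (fun k ↦ ?_) b
  rw [basis_apply, basis_apply, ores_ores]

include fr in
theorem nm_app {V : X.Opens} (h : V ≤ W) (a : Γ(X, V)) : nm g V ((g.app V).hom a) = a ^ n := by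
  let a1 := alg g V
  have h1 := Algebra.norm_algebraMap_of_basis (fr.basis h) a
  rw [Fintype.card_fin] at h1
  exact h1

include fr in
theorem isUnit_nm_iff {V : X.Opens} (h : V ≤ W) (b : Γ(X', g ⁻¹ᵁ V)) :
    IsUnit (nm g V b) ↔ IsUnit b :=
  let _ := alg g V
  NormRes.isUnit_norm_iff (fr.basis h) b

include fr in
theorem rank_unique {W' V : X.Opens} {n' : ℕ} (fr' : Fr g W' n') (h : V ≤ W) (h' : V ≤ W')
    (hV : (V : Set X).Nonempty) : n = n' := by
  let a1 := alg g V
  obtain ⟨x, hx⟩ := hV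
  have : Nontrivial Γ(X, V) := by
    have : Nonempty V := ⟨⟨x, hx⟩⟩
    infer_instance
  simpa using NormRes.card_unique (fr.basis h) (fr'.basis h')

include fr in
/-- If `g` is surjective then the rank over a nonempty open is positive. -/
theorem rank_pos [Surjective g] (hW : (W : Set X).Nonempty) : 0 < n := by
  obtain ⟨x, hx⟩ := hW
  obtain ⟨y, rfl⟩ := g.surjective x
  rw [Nat.pos_iff_ne_zero]
  rintro rfl
  have h1 := fr.bij W le_rfl
  have : Nontrivial Γ(X', g ⁻¹ᵁ W) := by
    have : Nonempty (g ⁻¹ᵁ W : X'.Opens) := ⟨⟨y, hx⟩⟩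
    infer_instance
  obtain ⟨c, hc⟩ := h1.2 1
  simp at hc

end Fr

/-- Frames from frames of the module `g_* O`. -/
theorem exists_fr (hfree : FlatMod.IsFinLocFree ((Coh.push g).obj (Coh.structureModule X'))) (x : X) :
    ∃ (W : X.Opens) (n : ℕ), x ∈ W ∧ Nonempty (Fr g W n) := by
  obtain ⟨W, n, hx, ⟨fr⟩⟩ := LoccohB.FinLocFreeFrame.exists_frame hfree x
  exact ⟨W, n, hx, ⟨⟨fr.e, fun V h ↦ fr.bij V h⟩⟩⟩

end Groth.Agent.Ega2.H275.FrameNorm
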