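import Groth.Agent.Ega2.H275.FrameData
import Groth.Agent.Flat2H.RelAmpleBasic

/-!
# Relative ampleness along finite surjective locally free morphisms
-/

set_option autoImplicit false
universe u

open CategoryTheory AlgebraicGeometry TopologicalSpace Opposite CategoryTheory.Limits
open Groth.Agent.Fdesc.LocGen Groth.Agent.Ega2.H275.FrameNorm Groth.Agent.Ega2.ExtCoeff Groth.Agent.Ega2.Nv
open Groth.Agent.Ega2.Ample

namespace Groth.Agent.Ega2.H275.RelDesc

variable {X X' Y : Scheme.{u}}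

/-- Relative ampleness is stable under pullback along affine morphisms. -/
theorem isRelAmple_pullback (f : X ⟶ Y) (g : X' ⟶ X) [IsAffineHom g] {L : X.Modules}
    (h : RelAmple.IsRelAmple f L) : RelAmple.IsRelAmple (g ≫ f) ((Scheme.Modules.pullback g).obj L) := by
  rw [RelAmp.isRelAmple_iff] at h ⊢
  obtain ⟨hq, hV⟩ := h
  refine ⟨inferInstance, fun V ↦ ?_⟩
  refine RelAmp.ampleOn_of_pullMap (pullMap g L) (hV V) le_rfl ?_ ?_
  · exact g.isCompact_preimage (hV V).isCompact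
  · intro A hA hAa
    have h1 : (g ≫ f) ⁻¹ᵁ V.1 ⊓ g ⁻¹ᵁ A = g ⁻¹ᵁ A := inf_eq_right.2 fun x hx ↦ hA hx
    rw [h1]
    exact hAa.preimage g

/-- Descent of ampleness over a quasi-compact open. -/
theorem ampleOn_of_pullback (g : X' ⟶ X) [IsFinite g] [Surjective g]
    (hfr : ∀ x : X, ∃ (W : X.Opens) (r : ℕ), x ∈ W ∧ Nonempty (Fr g W r)) {L : X.Modules}
    (hL : PicF.IsInvertible L) {U : X.Opens}
    (h : AmpleOn ((Scheme.Modules.pullback g).obj L) (g ⁻¹ᵁ U)) : AmpleOn L U := by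
  rw [← isAmple_restrict_ι_iff] at h ⊢
  have h1 := Flat2H.FamDict.isAmple_of_iso (Flat2H.RelAmpleBasic.pullbackRestrictIso g L U) h
  have hs : Surjective (g ∣_ U) := IsZariskiLocalAtTarget.restrict ‹Surjective g› _
  have hc : CompactSpace U := by
    have h2 : CompactSpace (g ⁻¹ᵁ U) := h1.2.1
    rw [← isCompact_univ_iff, ← (g ∣_ U).surjective.range_eq, ← Set.image_univ]
    exact isCompact_univ.image (g ∣_ U).continuous
  obtain ⟨n, hn, ⟨D⟩⟩ := FrameData.exists_normData (X := U.toScheme) (g := g ∣_ U)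
    (FrameData.exists_fr_restrict U hfr)
  exact D.isAmple_of_id hn (Flat2H.RelAmpleBasic.isInvertible_restrict hL _) h1

/-- Relative ampleness along finite surjective locally free morphisms. -/
theorem isRelAmple_iff (f : X ⟶ Y) (g : X' ⟶ X) [IsFinite g] [Surjective g]
    (hfr : ∀ x : X, ∃ (W : X.Opens) (r : ℕ), x ∈ W ∧ Nonempty (Fr g W r)) (L : X.Modules)
    (hL : PicF.IsInvertible L) :
    RelAmple.IsRelAmple f L ↔ RelAmple.IsRelAmple (g ≫ f) ((Scheme.Modules.pullback g).obj L) := by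
  refine ⟨isRelAmple_pullback f g, fun h ↦ ?_⟩
  rw [RelAmp.isRelAmple_iff] at h ⊢
  have key : ∀ V : Y.affineOpens, AmpleOn L (f ⁻¹ᵁ V.1) := fun V ↦ ampleOn_of_pullback g hfr hL (h.2 V)
  exact ⟨quasiCompact_iff_forall_isAffineOpen.2 fun V hV => (key ⟨V, hV⟩).isCompact, key⟩

end Groth.Agent.Ega2.H275.RelDesc
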